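import Mathlib.Logic.Equiv.Basic
import Mathlib.Tactic
import Cfsg.Agent.Prune
set_option linter.all false
prune_inst 0x7f00000000000000000000000000000000000000000000000000000000000000000000000000000000000000000000000000000000000000000000000000000000000000000000000000000000000000003fffffffffffffffffffffffffffbeffbdffffffff
open scoped Cfsg.Agent.FastGrp

/-!
# MO-Cb: sets labelled modulo an involution (helper26)

`Dbl S T γ lab` : the members of `E` are labelled by the members of `S` modulo the involution `T`; a free orbit of `T` is the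
label of one fixed point of `γ`, a fixed point of `T` is the label of a free orbit of `γ`.  `Dbl.exists_equiv` : `E` is unique.
-/

set_option autoImplicit false

namespace Cfsg.Agent.MO.Cb

variable {X X' E E' : Type}

/-- a labelling modulo an involution -/
structure Dbl (S : Set X) (T : X → X) (γ : E → E) (lab : E → X) : Prop where
  inv : ∀ x ∈ S, T (T x) = x
  stab : ∀ x ∈ S, T x ∈ S
  invol : ∀ e, γ (γ e) = e
  mem : ∀ e, lab e ∈ S
  onto : ∀ x ∈ S, ∃ e, lab e = x ∨ lab e = T x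
  fib : ∀ e e', (lab e' = lab e ∨ lab e' = T (lab e)) ↔ (e' = e ∨ e' = γ e)
  fix : ∀ e, γ e = e ↔ T (lab e) ≠ lab e

namespace Dbl

variable {S : Set X} {T : X → X} {γ : E → E} {lab : E → X} {S' : Set X'} {T' : X' → X'} {γ' : E' → E'} {lab' : E' → X'}

theorem lab_γ (h : Dbl S T γ lab) (e : E) : lab (γ e) = lab e := by
  by_cases h1 : γ e = e
  · rw [h1]
  · exact ((h.fib e _).2 (Or.inr rfl)).elim id fun h2 => h2.trans (not_not.1 (mt (h.fix e).2 h1))

/-- transport along a bijection of the labels -/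
theorem map (h : Dbl S T γ lab) {f : X → X'} (hf : Set.BijOn f S S') (hT : ∀ x ∈ S, f (T x) = T' (f x)) :
    Dbl S' T' γ fun e => f (lab e) where
  inv := by
    intro x hx
    obtain ⟨x, h1, rfl⟩ := hf.surjOn hx
    rw [← hT x h1, ← hT _ (h.stab x h1), h.inv x h1]
  stab := by
    intro x hx
    obtain ⟨x, h1, rfl⟩ := hf.surjOn hx
    exact hT x h1 ▸ hf.mapsTo (h.stab x h1)
  invol := h.invol
  mem e := hf.mapsTo (h.mem e)
  onto := by
    intro x hx
    obtain ⟨x, h1, rfl⟩ := hf.surjOn hx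
    obtain ⟨e, he⟩ := h.onto x h1
    exact ⟨e, he.imp (congrArg f) fun h2 => by rw [h2, hT x h1]⟩
  fib e e' := by
    rw [← hT _ (h.mem e), hf.injOn.eq_iff (h.mem e') (h.mem e), hf.injOn.eq_iff (h.mem e') (h.stab _ (h.mem e)), h.fib]
  fix e := by rw [← hT _ (h.mem e), h.fix, Ne, Ne, hf.injOn.eq_iff (h.stab _ (h.mem e)) (h.mem e)]

/-- restriction to a stable set of labels -/
theorem sub (h : Dbl S T γ lab) (P : X → Prop) (hP : ∀ x ∈ S, P x → P (T x)) :
    Dbl {x ∈ S | P x} T (fun e : {e // P (lab e)} => ⟨γ e.1, (h.lab_γ e.1).symm ▸ e.2⟩) fun e => lab e.1 where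
  inv x hx := h.inv x hx.1
  stab x hx := ⟨h.stab x hx.1, hP x hx.1 hx.2⟩
  invol e := Subtype.ext (h.invol e.1)
  mem e := ⟨h.mem e.1, e.2⟩
  onto x hx := by
    obtain ⟨e, he⟩ := h.onto x hx.1
    exact ⟨⟨e, he.elim (fun h1 => h1 ▸ hx.2) fun h1 => h1 ▸ hP x hx.1 hx.2⟩, he⟩
  fib e e' := by rw [h.fib, Subtype.ext_iff, Subtype.ext_iff]
  fix e := by rw [← h.fix, Subtype.ext_iff]

/-- **uniqueness** -/
theorem exists_equiv (h : Dbl S T γ lab) {lab' : E' → X} (h' : Dbl S T γ' lab') :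
    ∃ f : E ≃ E', ∀ e, f (γ e) = γ' (f e) ∧ (lab' (f e) = lab e ∨ lab' (f e) = T (lab e)) := by
  classical
  let R : Setoid E := ⟨fun a b => a = b ∨ a = γ b, fun _ => Or.inl rfl,
    fun h1 => h1.imp Eq.symm fun h1 => by rw [h1, h.invol], by
      rintro a b c (rfl | rfl) (rfl | rfl)
      exacts [Or.inl rfl, Or.inr rfl, Or.inr rfl, Or.inl (h.invol _)]⟩
  let r : E → E := fun e => (Quotient.mk R e).out
  have r1 : ∀ e, r e = e ∨ r e = γ e := fun e => Quotient.mk_out (s := R) e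
  have r2 : ∀ e, r (γ e) = r e := fun e => congrArg Quotient.out (Quotient.sound (s := R) (Or.inr rfl))
  have r3 : ∀ e, lab (r e) = lab e := fun e => (r1 e).elim (congrArg lab) fun h1 => h1 ▸ h.lab_γ e
  choose b hb using fun e => h'.onto _ (h.mem e)
  have k : ∀ {x y : X}, x ∈ S → (y = x ∨ y = T x) → (T y = y ↔ T x = x) := by
    rintro x y hx (rfl | rfl)
    · rfl
    · rw [h.inv x hx, eq_comm]
  have k' : ∀ {x y z : X}, x ∈ S → (z = x ∨ z = T x) → y ∈ S → (z = y ∨ z = T y) → y = x ∨ y = T x := by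
    rintro x y z hx (rfl | rfl) hy (h2 | h2)
    exacts [Or.inl h2.symm, Or.inr (by rw [h2, h.inv y hy]), Or.inr h2.symm,
      Or.inl (by rw [← h.inv y hy, ← h2, h.inv x hx])]
  let f : E → E' := fun e => if r e = e then b (r e) else γ' (b (r e))
  have f1 : ∀ e, lab' (f e) = lab e ∨ lab' (f e) = T (lab e) := fun e => by
    have h1 := hb (r e)
    rw [r3] at h1
    simp only [f]
    split_ifs
    · exact h1
    · rwa [h'.lab_γ]
  have f0 : ∀ e, γ' (f e) = f e ↔ γ e = e := fun e => by rw [h.fix, h'.fix, Ne, Ne, k (h.mem e) (f1 e)]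
  have f2 : ∀ e, f (γ e) = γ' (f e) := fun e => by
    by_cases h1 : γ e = e
    · rw [h1, (f0 e).2 h1]
    simp only [f, r2]
    rcases r1 e with h2 | h2
    · rw [if_pos h2, if_neg fun h3 => h1 (h3.symm.trans h2)]
    · rw [if_pos h2, if_neg fun h3 => h1 (h2.symm.trans h3), h'.invol]
  refine ⟨Equiv.ofBijective f ⟨fun e e' h1 => ?_, fun e' => ?_⟩, fun e => ⟨f2 e, f1 e⟩⟩
  · rcases (h.fib e e').1 (k' (h.mem e) (f1 e) (h.mem e') (h1 ▸ f1 e')) with h2 | rfl
    · exact h2.symm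
    · exact ((f0 e).1 (f2 e ▸ h1.symm)).symm
  · obtain ⟨e, he⟩ := h.onto _ (h'.mem e')
    rcases (h'.fib (f e) e').1 (k' (h'.mem _) (k' (h'.mem _) (Or.inl rfl) (h.mem e) (f1 e)) (h'.mem e') he) with h2 | h2
    · exact ⟨e, h2.symm⟩
    · exact ⟨γ e, (f2 e).trans h2.symm⟩

end Dbl

end Cfsg.Agent.MO.Cb
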