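import Mathlib.SetTheory.Cardinal.NatCard
import Mathlib.Algebra.BigOperators.Group.Finset.Basic
import Mathlib.Algebra.Group.End
import Mathlib.Logic.Equiv.Basic
import Cfsg.Agent.Prune
set_option linter.all false
prune_inst 0x7f00000000000000000000000000000000000000000000000000000000000000000000000000000000000000000000000000000000000000000000000000000000000000000000000000000000000000003fffffffffffffffffffffffffffbeffbdffffffff
open scoped Cfsg.Agent.FastGrp

/-!
# MO-Cb: fixed sections (helper68)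

* `Gpd σ p r d` : `G` permutes the set `B`, `r g u v` says that `g` moves `u` to `v`, `d` is a degree;
* `card_sec` : the number of fixed sections of given degree only depends on the numbers of points fixed by the stabilisers.
-/

set_option autoImplicit false

namespace Cfsg.Agent.MO.Cb

variable {G B U U' : Type} [Group G] (σ : G →* Equiv.Perm B)

/-- moves of the points over `B` -/
structure Gpd (p : U → B) (r : G → U → U → Prop) (d : U → ℕ) : Prop where
  one : ∀ u, r 1 u u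
  mul : ∀ {g h u v w}, r g u v → r h v w → r (h * g) u w
  inv : ∀ {g u v}, r g u v → r g⁻¹ v u
  ex : ∀ g u, ∃ v, p v = σ g (p u) ∧ r g u v
  uniq : ∀ {g u v v'}, p v = σ g (p u) → p u ≠ p v → p v' = p v → r g u v → r g u v' → v = v'
  deg : ∀ {g u v}, p v = σ g (p u) → r g u v → d u = d v

/-- fixed sections -/
def Sec (p : U → B) (r : G → U → U → Prop) (s : B → U) : Prop := (∀ b, p (s b) = b) ∧ ∀ g b, r g (s b) (s (σ g b))

/-- points over `b` which are fixed by the stabiliser -/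
def Fxd (p : U → B) (r : G → U → U → Prop) (b : B) (u : U) : Prop := p u = b ∧ ∀ g, σ g b = b → r g u u

/-- the orbits -/
def obS : Setoid B where
  r b c := ∃ g, σ g b = c
  iseqv := ⟨fun b => ⟨1, by simp⟩, fun ⟨g, h⟩ => ⟨g⁻¹, by simp [← h]⟩, fun ⟨g, h⟩ ⟨k, h'⟩ => ⟨k * g, by simp [h, h']⟩⟩

variable {σ} {p : U → B} {r : G → U → U → Prop} {d : U → ℕ} {p' : U' → B} {r' : G → U' → U' → Prop} {d' : U' → ℕ}

theorem Gpd.exists_equiv (H : Gpd σ p r d) : ∃ e : {s // Sec σ p r s} ≃ ∀ c : Quotient (obS σ), {u // Fxd σ p r c.out u},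
    ∀ s b, d (s.1 b) = d (e s ⟦b⟧).1 := by
  have h0 : ∀ b, ∃ g, σ g (⟦b⟧ : Quotient (obS σ)).out = b := fun b => Quotient.mk_out (s := obS σ) b
  refine ⟨Equiv.ofBijective (fun s c => ⟨s.1 c.out, s.2.1 _, fun g h => by simpa only [h] using s.2.2 g c.out⟩)
    ⟨fun s s' e => Subtype.ext (funext fun b => ?_), fun u => ?_⟩, fun s b => ?_⟩
  · obtain ⟨g, h⟩ := h0 b
    have h1 : s.1 _ = s'.1 _ := congrArg Subtype.val (congrFun e ⟦b⟧)
    by_cases h2 : (⟦b⟧ : Quotient (obS σ)).out = b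
    · rwa [h2] at h1
    · exact H.uniq (g := g) (u := s.1 (⟦b⟧ : Quotient (obS σ)).out) (by rw [s.2.1, s.2.1, h]) (by rwa [s.2.1, s.2.1]) (by rw [s.2.1, s'.2.1])
        (by simpa only [h] using s.2.2 g (⟦b⟧ : Quotient (obS σ)).out) (by simpa only [h, h1] using s'.2.2 g (⟦b⟧ : Quotient (obS σ)).out)
  · have h1 : ∀ b, ∃ g v, σ g (⟦b⟧ : Quotient (obS σ)).out = b ∧ p v = b ∧ r g (u ⟦b⟧).1 v ∧
        ((⟦b⟧ : Quotient (obS σ)).out = b → v = (u ⟦b⟧).1) := fun b => by
      by_cases h2 : (⟦b⟧ : Quotient (obS σ)).out = b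
      · exact ⟨1, _, by simpa using h2, (u ⟦b⟧).2.1.trans h2, H.one _, fun _ => rfl⟩
      · obtain ⟨g, h⟩ := h0 b
        obtain ⟨v, h3, h4⟩ := H.ex g (u ⟦b⟧).1
        exact ⟨g, v, h, by rw [h3, (u ⟦b⟧).2.1, h], h4, fun h5 => absurd h5 h2⟩
    choose t s h1 h2 h3 h4 using h1
    refine ⟨⟨s, h2, fun g b => ?_⟩, funext fun c => Subtype.ext ((h4 _ (by rw [c.out_eq])).trans (by rw [c.out_eq]))⟩
    have h5 : (⟦b⟧ : Quotient (obS σ)) = ⟦σ g b⟧ := Quotient.sound ⟨g, rfl⟩
    have h6 := h1 (σ g b)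
    have h7 := h3 (σ g b)
    rw [← h5] at h6 h7
    have h8 := (u ⟦b⟧).2.2 ((t (σ g b))⁻¹ * g * t b) (by
      rw [map_mul, map_mul, Equiv.Perm.mul_apply, Equiv.Perm.mul_apply, h1, map_inv, Equiv.Perm.inv_eq_iff_eq, h6])
    simpa only [← mul_assoc, mul_inv_cancel, one_mul, mul_inv_cancel_right] using H.mul (H.mul (H.inv (h3 b)) h8) h7
  · obtain ⟨g, h⟩ := h0 b
    exact (H.deg (g := g) (u := s.1 (⟦b⟧ : Quotient (obS σ)).out) (by rw [s.2.1, s.2.1, h]) (by simpa only [h] using s.2.2 g (⟦b⟧ : Quotient (obS σ)).out)).symm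

/-- **the number of fixed sections** -/
theorem card_sec [Fintype B] [Finite U] [Finite U'] (H : Gpd σ p r d) (H' : Gpd σ p' r' d')
    (h : ∀ b n, Nat.card {u // Fxd σ p r b u ∧ d u = n} = Nat.card {u // Fxd σ p' r' b u ∧ d' u = n}) (n : ℕ) :
    Nat.card {s // Sec σ p r s ∧ ∏ b, d (s b) = n} = Nat.card {s // Sec σ p' r' s ∧ ∏ b, d' (s b) = n} := by
  obtain ⟨e, he⟩ := H.exists_equiv
  obtain ⟨e', he'⟩ := H'.exists_equiv
  have h1 : ∀ b, ∃ k : {u // Fxd σ p r b u} ≃ {u // Fxd σ p' r' b u}, ∀ u, d' (k u).1 = d u.1 := fun b =>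
    let k := fun m => ((Equiv.subtypeSubtypeEquivSubtypeInter _ (d · = m)).trans
      (Finite.card_eq.1 (h b m)).some).trans (Equiv.subtypeSubtypeEquivSubtypeInter _ (d' · = m)).symm
    ⟨Equiv.ofFiberEquiv (f := fun u => d u.1) (g := fun u => d' u.1) k, Equiv.ofFiberEquiv_map k⟩
  choose k hk using h1
  refine Nat.card_congr (((Equiv.subtypeSubtypeEquivSubtypeInter _ fun s => ∏ b, d (s b) = n).symm.trans
    (((e.trans (Equiv.piCongrRight fun c => k c.out)).trans e'.symm).subtypeEquiv fun s => ?_)).trans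
    (Equiv.subtypeSubtypeEquivSubtypeInter _ fun s => ∏ b, d' (s b) = n))
  simp only [he, he', Equiv.trans_apply, Equiv.apply_symm_apply, Equiv.piCongrRight_apply, Pi.map_apply, hk]

example := And.intro @Sec.eq_def @Sec.eq_1
example := And.intro @Fxd.eq_def @Fxd.eq_1
example := And.intro @obS.eq_def @obS.eq_1

end Cfsg.Agent.MO.Cb
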